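import Mathlib
import Cfsg.Agent.Lib.Helper58.SuzA.Defs

/-!
# S3162 (SuzA), package (3) [THETA]

The action of `Aut T` on the first coordinate, as a homomorphism `MulAut T →* Equiv.Perm F`
(assuming the package (2) [TR]).
-/

set_option autoImplicit false

namespace Cfsg.Agent.Lib.Helper77.SuzA

open Cfsg.Agent.Lib.Helper58.SuzA

universe u v

section

variable {F : Type u} [Field F] {q : ℕ} {T : Type v} [Group T] (C : Coords F q T)

theorem c_fst_mul (x y : T) : (C.c (x * y)).1 = (C.c x).1 + (C.c y).1 := by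
  rw [C.mul]

theorem c_snd_mul (x y : T) :
    (C.c (x * y)).2 = (C.c x).2 + (C.c y).2 + (C.c x).1 ^ q * (C.c y).1 := by
  rw [C.mul]

theorem c_fst_one : (C.c 1).1 = 0 := by
  have h := c_fst_mul C 1 1
  rw [one_mul] at h
  simpa using h

theorem c_snd_one : (C.c 1).2 = 0 := by
  have h := c_snd_mul C 1 1
  rw [one_mul, c_fst_one, mul_zero, add_zero] at h
  simpa using h

theorem c_fst_inv (x : T) : (C.c x⁻¹).1 = -(C.c x).1 := by
  have h := c_fst_mul C x⁻¹ x
  rw [inv_mul_cancel, c_fst_one] at h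
  exact eq_neg_of_add_eq_zero_left h.symm

/-- in characteristic 2, the elements with first coordinate `0` are those with `x * x = 1` -/
theorem c_fst_eq_zero_iff (h2 : (2 : F) = 0) (x : T) : (C.c x).1 = 0 ↔ x * x = 1 := by
  have hadd : ∀ a : F, a + a = 0 := fun a => by rw [← two_mul, h2, zero_mul]
  have h1 : (C.c (x * x)).1 = 0 := by rw [c_fst_mul, hadd]
  have h2' : (C.c (x * x)).2 = (C.c x).1 ^ (q + 1) := by
    rw [c_snd_mul, hadd, zero_add, pow_succ]
  constructor
  · intro h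
    apply C.inj
    apply Prod.ext
    · rw [h1, c_fst_one]
    · rw [h2', h, c_snd_one, zero_pow (Nat.succ_ne_zero q)]
  · intro h
    rw [h, c_snd_one] at h2'
    exact pow_eq_zero_iff (Nat.succ_ne_zero q) |>.mp h2'.symm

/-- automorphisms respect the fibres of the first coordinate -/
theorem c_fst_aut (h2 : (2 : F) = 0) (φ : MulAut T) (x y : T)
    (h : (C.c x).1 = (C.c y).1) : (C.c (φ x)).1 = (C.c (φ y)).1 := by
  have h0 : (C.c (x⁻¹ * y)).1 = 0 := by
    rw [c_fst_mul, c_fst_inv, h, neg_add_cancel]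
  have h1 : (x⁻¹ * y) * (x⁻¹ * y) = 1 := (c_fst_eq_zero_iff C h2 _).mp h0
  have h3 : φ (x⁻¹ * y) * φ (x⁻¹ * y) = 1 := by
    rw [← map_mul, h1, map_one]
  have h4 : (C.c (φ (x⁻¹ * y))).1 = 0 := (c_fst_eq_zero_iff C h2 _).mpr h3
  rw [map_mul, map_inv, c_fst_mul, c_fst_inv] at h4
  have h5 : (C.c (φ y)).1 = (C.c (φ x)).1 := by
    have := neg_add_eq_zero.mp h4
    exact this.symm
  exact h5.symm

end

/-- **(3) [THETA]** from (2) [TR]. -/
theorem pkgTheta_of (hTr : PkgTr.{u}) : PkgTheta.{u, v} := by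
  intro F _ _ n hn hcard T _ C
  have h2 : (2 : F) = 0 := by
    have h := Nat.cast_card_eq_zero F
    rw [hcard] at h
    push_cast at h
    have h' : (2 : F) ^ n = 0 := pow_eq_zero_iff (two_ne_zero) |>.mp h
    exact pow_eq_zero_iff (by omega) |>.mp h'
  have hsurj : ∀ a : F, ∃ x : T, (C.c x).1 = a := by
    intro a
    obtain ⟨b, hb⟩ := hTr F n (by omega) hcard a
    obtain ⟨x, hx⟩ := (C.range a b).mpr hb
    exact ⟨x, by rw [hx]⟩
  choose s hs using hsurj
  have hθ : ∀ (φ : MulAut T) (x : T), (C.c (φ (s (C.c x).1))).1 = (C.c (φ x)).1 :=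
    fun φ x => c_fst_aut C h2 φ _ _ (hs _)
  refine ⟨{ toFun := fun φ =>
              { toFun := fun a => (C.c (φ (s a))).1
                invFun := fun a => (C.c (φ⁻¹ (s a))).1
                left_inv := ?_
                right_inv := ?_ }
            map_one' := ?_
            map_mul' := ?_ }, ?_⟩
  · intro a
    show (C.c (φ⁻¹ (s (C.c (φ (s a))).1))).1 = a
    rw [hθ φ⁻¹ (φ (s a)), MulAut.inv_apply_self]
    exact hs a
  · intro a
    show (C.c (φ (s (C.c (φ⁻¹ (s a))).1))).1 = a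
    rw [hθ φ (φ⁻¹ (s a)), MulAut.apply_inv_self]
    exact hs a
  · ext a
    show (C.c ((1 : MulAut T) (s a))).1 = a
    rw [MulAut.one_apply]
    exact hs a
  · intro φ ψ
    ext a
    show (C.c ((φ * ψ) (s a))).1 = (C.c (φ (s (C.c (ψ (s a))).1))).1
    rw [hθ φ (ψ (s a)), MulAut.mul_apply]
  · intro φ x
    exact hθ φ x

end Cfsg.Agent.Lib.Helper77.SuzA
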